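import Cfsg.Agent.Lib.Lead.Knorr3
import Cfsg.Agent.Lib.H2.Basic

/-!
# Average dimension of fixed spaces for solvable groups
-/

set_option autoImplicit false

open Cfsg Cfsg.Agent.H3 Cfsg.Agent.H4 Module

namespace Cfsg.Agent.Lead

variable {p : ℕ} [hp : Fact p.Prime] {G : Type*} [Group G] {W : Type*} [AddCommGroup W]
  [Module (ZMod p) W]

theorem rep_mul_app (ρ : Representation (ZMod p) G W) (a b : G) (w : W) :
    ρ a (ρ b w) = ρ (a * b) w := by simp

theorem avg_fix_coset [Finite W] (ρ : Representation (ZMod p) G W) (N : Subgroup G)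
    [hN : N.Normal] [Fintype N] (hab : ∀ a ∈ N, ∀ b ∈ N, a * b = b * a)
    (hc : ¬ p ∣ Nat.card N) (g : G) (m : ℕ) : ∀ D : Submodule (ZMod p) W, finrank (ZMod p) D = m →
    (∀ n ∈ N, ∀ w ∈ D, ρ n w ∈ D) → (∀ w ∈ D, ρ g w ∈ D) →
    (∀ w ∈ D, (∀ n ∈ N, ρ n w = w) → w = 0) →
    2 * ∑ n : N, finrank (ZMod p) (D ⊓ fixSp ρ (g * n) : Submodule (ZMod p) W) ≤
      Nat.card N * finrank (ZMod p) D := by
  classical
  induction m using Nat.strong_induction_on with
  | _ m ih =>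
  intro D hm hDN hDg hD0
  by_cases hD : D = ⊥
  · subst hD; simp
  have hfin : Finite (Subgroup N) := inferInstance
  obtain ⟨H, ⟨hHN, t0, ht0D, ht0, ht0H⟩, hmax⟩ := Set.Finite.exists_maximal
    (s := {H : Subgroup G | H ≤ N ∧ ∃ w ∈ D, w ≠ 0 ∧ ∀ h ∈ H, ρ h w = w})
    ((Set.finite_range fun K : Subgroup N => K.map N.subtype).subset fun K hK =>
      ⟨K.subgroupOf N, Subgroup.map_subgroupOf_eq_of_le hK.1⟩) (by
      obtain ⟨w, hw, hw0⟩ := (Submodule.ne_bot_iff D).1 hD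
      exact ⟨⊥, bot_le, w, hw, hw0, fun h hh => by simp [Subgroup.mem_bot.1 hh]⟩)
  have hmax' : ∀ y ∈ N, y ∉ H → ∀ w ∈ D, (∀ h ∈ H, ρ h w = w) → ρ y w = w → w = 0 := by
    intro y hy hyH w hw h1 h2
    by_contra h0
    let K : Subgroup G :=
      { carrier := {k | k ∈ N ∧ ρ k w = w}
        mul_mem' := fun ha hb => ⟨mul_mem ha.1 hb.1, by simp [ha.2, hb.2]⟩
        one_mem' := ⟨one_mem _, by simp⟩
        inv_mem' := fun {a} ha => ⟨inv_mem ha.1, by
          conv_lhs => rw [← ha.2]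
          exact rep_inv_apply_apply ρ a w⟩ }
    exact hyH (hmax (y := K) ⟨fun k hk => hk.1, w, hw, h0, fun k hk => hk.2⟩
      (fun h hh => ⟨hHN hh, h1 h hh⟩) ⟨hy, h2⟩)
  have : Finite H := Finite.of_injective _ (Subgroup.inclusion_injective hHN)
  have := Fintype.ofFinite H
  have hcH : (Nat.card H : ZMod p) ≠ 0 := by
    rw [Ne, ZMod.natCast_eq_zero_iff]
    exact fun h => hc (h.trans (Subgroup.card_dvd_of_le hHN))
  set e : W →ₗ[ZMod p] W := ∑ h : H, ρ h with he
  have he1 : ∀ w, e w = ∑ h : H, ρ h w := fun w => by simp [he]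
  have heH : ∀ w, ∀ h ∈ H, ρ h (e w) = e w := fun w h hh => by
    rw [he1, map_sum, ← Equiv.sum_comp (Equiv.mulLeft (⟨h, hh⟩ : H)) fun k : H => ρ k w]
    simp
  have heT : ∀ w, (∀ h ∈ H, ρ h w = w) → e w = 0 → w = 0 := fun w hw h0 => by
    rw [he1, Finset.sum_congr rfl fun (h : H) _ => hw h h.2, Finset.sum_const, Finset.card_univ,
      ← Nat.card_eq_fintype_card, ← Nat.cast_smul_eq_nsmul (ZMod p)] at h0
    exact (smul_eq_zero.1 h0).resolve_left hcH
  have heN : ∀ n ∈ N, ∀ w, e (ρ n w) = ρ n (e w) := fun n hn w => by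
    rw [he1, he1, map_sum]
    refine Finset.sum_congr rfl fun h _ => ?_
    rw [← Module.End.mul_apply, ← Module.End.mul_apply, ← map_mul, ← map_mul, hab _ hn _ (hHN h.2)]
  have heD : ∀ w ∈ D, e w ∈ D := fun w hw => by
    rw [he1]; exact sum_mem fun h _ => hDN _ (hHN h.2) w hw
  let T : Submodule (ZMod p) W :=
    { carrier := {w | w ∈ D ∧ ∀ h ∈ H, ρ h w = w}
      add_mem' := fun ha hb => ⟨add_mem ha.1 hb.1, fun h hh => by rw [map_add, ha.2 h hh, hb.2 h hh]⟩
      zero_mem' := ⟨zero_mem _, fun h _ => map_zero _⟩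
      smul_mem' := fun c w hw => ⟨D.smul_mem c hw.1, fun h hh => by rw [map_smul, hw.2 h hh]⟩ }
  let D' : Submodule (ZMod p) W :=
    { carrier := {w | w ∈ D ∧ ∀ i : ℕ, e (ρ (g ^ i) w) = 0}
      add_mem' := fun ha hb => ⟨add_mem ha.1 hb.1, fun i => by
        rw [map_add, map_add, ha.2, hb.2, add_zero]⟩
      zero_mem' := ⟨zero_mem _, fun i => by simp⟩
      smul_mem' := fun c w hw => ⟨D.smul_mem c hw.1, fun i => by
        rw [map_smul, map_smul, hw.2, smul_zero]⟩ }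
  have hD'D : D' ≤ D := fun w hw => hw.1
  have hTD : T ≤ D := fun w hw => hw.1
  have hD'0 : ∀ w ∈ D', e w = 0 := fun w hw => by simpa using hw.2 0
  have hlt : finrank (ZMod p) D' < m := hm ▸ Submodule.finrank_lt_finrank_of_lt
    (lt_of_le_of_ne hD'D fun h => ht0 (heT t0 ht0H (hD'0 t0 (h ▸ ht0D))))
  have hI := ih _ hlt D' rfl (fun n hn w hw => ⟨hDN n hn w hw.1, fun i => by
      rw [rep_mul_app, show g ^ i * n = (g ^ i * n * (g ^ i)⁻¹) * g ^ i by group,
        map_mul, Module.End.mul_apply, heN _ (hN.conj_mem n hn _), hw.2, map_zero]⟩)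
    (fun w hw => ⟨hDg w hw.1, fun i => by
      rw [rep_mul_app, ← pow_succ, hw.2]⟩)
    fun w hw => hD0 w hw.1
  have hker : ∀ n : N, finrank (ZMod p) (D ⊓ fixSp ρ (g * n) : Submodule (ZMod p) W) ≤
      finrank (ZMod p) (D' ⊓ fixSp ρ (g * n) : Submodule (ZMod p) W) +
      finrank (ZMod p) ((D ⊓ fixSp ρ (g * n)).map e) := fun n => by
    set C := D ⊓ fixSp ρ (g * n)
    have h1 := LinearMap.finrank_range_add_finrank_ker (e.domRestrict C)
    rw [LinearMap.range_domRestrict, LinearMap.ker_domRestrict] at h1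
    rw [← h1, add_comm, ← Submodule.finrank_map_subtype_eq, Submodule.map_comap_subtype]
    refine Nat.add_le_add_right (Submodule.finrank_mono (s := C ⊓ LinearMap.ker e)
      (t := D' ⊓ fixSp ρ (g * n)) fun w hw => ⟨⟨hw.1.1, fun i => ?_⟩, hw.1.2⟩) _
    have h2 : ∀ i : ℕ, ∃ k ∈ N, ρ (g ^ i) w = ρ k w := fun i => by
      induction i with
      | zero => exact ⟨1, one_mem _, by simp⟩
      | succ i ih =>
        obtain ⟨k, hk, hk'⟩ := ih
        refine ⟨g * (k * (n : G)⁻¹) * g⁻¹, hN.conj_mem _ (mul_mem hk (inv_mem n.2)) _, ?_⟩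
        rw [pow_succ', map_mul, Module.End.mul_apply, hk']
        conv_rhs => rw [← mem_fixSp.1 hw.1.2]
        rw [← Module.End.mul_apply, ← Module.End.mul_apply, ← map_mul, ← map_mul]
        congr 2; group
    obtain ⟨k, hk, hk'⟩ := h2 i
    rw [hk', heN k hk, LinearMap.mem_ker.1 hw.2, map_zero]
  have hsub : ∀ A : Submodule (ZMod p) W, A ≤ D → Disjoint D' A →
      finrank (ZMod p) D' + finrank (ZMod p) A ≤ finrank (ZMod p) D := fun A hA hd => by
    rw [← Submodule.finrank_sup_add_finrank_inf_eq, hd.eq_bot, finrank_bot, add_zero]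
    exact Submodule.finrank_mono (sup_le hD'D hA)
  suffices h : ∃ A : Submodule (ZMod p) W, A ≤ D ∧ Disjoint D' A ∧
      2 * ∑ n : N, finrank (ZMod p) ((D ⊓ fixSp ρ (g * n)).map e) ≤
        Nat.card N * finrank (ZMod p) A by
    obtain ⟨A, hA, hd, h3⟩ := h
    have h1 := Finset.sum_le_sum fun n (_ : n ∈ Finset.univ) => hker n
    rw [Finset.sum_add_distrib] at h1
    have h2 := Nat.mul_le_mul_left (Nat.card N) (hsub A hA hd)
    rw [mul_add] at h2
    omega
  by_cases hgH : ∀ h ∈ H, g * h * g⁻¹ ∈ H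
  · refine ⟨T, hTD, Submodule.disjoint_def.2 fun w h1 h2 => heT w h2.2 (hD'0 w h1), ?_⟩
    obtain ⟨y, hy, hyH⟩ : ∃ y ∈ N, y ∉ H := by
      by_contra h; push Not at h
      exact ht0 (hD0 t0 ht0D fun n hn => ht0H n (h n hn))
    have h1 : ∀ n : N, (D ⊓ fixSp ρ (g * n)).map e ≤ T ⊓ fixSp ρ (g * n) := by
      rintro n _ ⟨w, hw, rfl⟩
      refine ⟨⟨heD w hw.1, heH w⟩, mem_fixSp.2 ?_⟩
      have hb : Function.Bijective fun h : H => (⟨g * h * g⁻¹, hgH h h.2⟩ : H) :=
        Finite.injective_iff_bijective.1 fun a b hab => Subtype.ext (by simpa using hab)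
      rw [he1, map_sum, ← hb.sum_comp fun k : H => ρ k w]
      refine Finset.sum_congr rfl fun h _ => ?_
      conv_rhs => rw [← mem_fixSp.1 hw.2]
      rw [← Module.End.mul_apply, ← Module.End.mul_apply, ← map_mul, ← map_mul, mul_assoc,
        hab _ n.2 _ (hHN h.2)]
      congr 2; group
    have h2 : ∀ n : N, finrank (ZMod p) (T ⊓ fixSp ρ (g * n) : Submodule (ZMod p) W) +
        finrank (ZMod p) (T ⊓ fixSp ρ (g * (n * ⟨y, hy⟩ : N)) : Submodule (ZMod p) W) ≤
        finrank (ZMod p) T := fun n => by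
      rw [← Submodule.finrank_sup_add_finrank_inf_eq, (eq_bot_iff (a := (T ⊓ fixSp ρ (g * n)) ⊓
        (T ⊓ fixSp ρ (g * (n * ⟨y, hy⟩ : N))))).2 fun w hw => ?_, finrank_bot, add_zero]
      · exact Submodule.finrank_mono (sup_le inf_le_left inf_le_left)
      refine hmax' y hy hyH w hw.1.1.1 hw.1.1.2 ?_
      have k1 := mem_fixSp.1 hw.1.2
      have k2 := mem_fixSp.1 hw.2.2
      rw [Subgroup.coe_mul, ← mul_assoc, map_mul, Module.End.mul_apply] at k2
      rw [← rep_inv_apply_apply ρ (g * n) (ρ y w), k2]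
      conv_lhs => rw [← k1]
      exact rep_inv_apply_apply ρ _ w
    have h3 := Finset.sum_le_sum fun n (_ : n ∈ Finset.univ) => h2 n
    have h4 := Finset.sum_le_sum fun n (_ : n ∈ Finset.univ) => Submodule.finrank_mono (h1 n)
    have h5 : ∑ n : N, finrank (ZMod p)
        (T ⊓ fixSp ρ (g * (n * ⟨y, hy⟩ : N)) : Submodule (ZMod p) W) = _ :=
      Equiv.sum_comp (Equiv.mulRight (⟨y, hy⟩ : N)) fun n : N =>
        finrank (ZMod p) (T ⊓ fixSp ρ (g * n) : Submodule (ZMod p) W)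
    rw [Finset.sum_add_distrib, h5] at h3
    simp only [Finset.sum_const, Finset.card_univ, smul_eq_mul, ← Nat.card_eq_fintype_card] at h3
    omega
  · obtain ⟨y, hy, hyH⟩ : ∃ y ∈ H, g * y * g⁻¹ ∉ H := by push Not at hgH; exact hgH
    have hyN := hN.conj_mem y (hHN hy) g
    let T1 := T.map (ρ g)
    have hT1 : ∀ w ∈ T1, ρ (g * y * g⁻¹) w = w := by
      rintro _ ⟨t, ht, rfl⟩
      rw [map_mul, map_mul, Module.End.mul_apply, Module.End.mul_apply, rep_inv_apply_apply,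
        ht.2 y hy]
    have hT1D : T1 ≤ D := by rintro _ ⟨t, ht, rfl⟩; exact hDg t ht.1
    have hr : finrank (ZMod p) T1 = finrank (ZMod p) T :=
      (Submodule.equivMapOfInjective _ (fun a b h => by
        rw [← rep_inv_apply_apply ρ g a, h, rep_inv_apply_apply]) T).finrank_eq.symm
    refine ⟨T ⊔ T1, sup_le hTD hT1D, Submodule.disjoint_def.2 fun w h1 h2 => ?_, ?_⟩
    · obtain ⟨t, ht, t1, ht1, rfl⟩ := Submodule.mem_sup.1 h2
      have k1 : e t1 = 0 := hmax' _ hyN hyH _ (heD _ (hT1D ht1)) (heH _) (by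
        rw [← heN _ hyN, hT1 _ ht1])
      have k2 := hD'0 _ h1
      rw [map_add, k1, add_zero] at k2
      rw [heT t ht.2 k2, zero_add] at h1 ⊢
      obtain ⟨t', ht', rfl⟩ := ht1
      have hg : IsOfFinOrder (MonoidHom.toHomUnits ρ g) := by
        have : Finite (Module.End (ZMod p) W) := DFunLike.finite _
        exact isOfFinOrder_of_finite _
      obtain ⟨k, hk, hk'⟩ := hg.exists_pow_eq_one
      have k3 := h1.2 (k - 1)
      rw [rep_mul_app, ← pow_succ, Nat.sub_add_cancel hk, map_pow,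
        show ρ g ^ k = 1 by simpa using congrArg Units.val hk'] at k3
      rw [heT t' ht'.2 k3, map_zero]
    · have k1 : T ⊓ T1 = ⊥ := eq_bot_iff.2 fun w hw =>
        hmax' _ hyN hyH w hw.1.1 hw.1.2 (hT1 w hw.2)
      have k2 := Submodule.finrank_sup_add_finrank_inf_eq T T1
      rw [k1, finrank_bot, add_zero, hr] at k2
      have h1 : ∀ n : N, (D ⊓ fixSp ρ (g * n)).map e ≤ T := by
        rintro n _ ⟨w, hw, rfl⟩
        exact ⟨heD w hw.1, heH w⟩
      have h4 := Finset.sum_le_sum fun n (_ : n ∈ Finset.univ) => Submodule.finrank_mono (h1 n)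
      simp only [Finset.sum_const, Finset.card_univ, smul_eq_mul, ← Nat.card_eq_fintype_card] at h4
      rw [k2]; nlinarith

theorem avg_fix [Fintype G] [Group.IsSolvable G] [Finite W] (ρ : Representation (ZMod p) G W)
    (hirr : ∀ U : Submodule (ZMod p) W, (∀ g, ∀ u ∈ U, ρ g u ∈ U) → U = ⊥ ∨ U = ⊤)
    (hnt : ∃ g w, ρ g w ≠ w) :
    2 * ∑ g, finrank (ZMod p) (fixSp ρ g) ≤ Nat.card G * finrank (ZMod p) W := by
  classical
  set K := MonoidHom.ker ρ
  obtain ⟨σ, hσ, hinj⟩ : ∃ σ : Representation (ZMod p) (G ⧸ K) W, (∀ g : G, σ g = ρ g) ∧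
      ∀ q, σ q = 1 → q = 1 := ⟨QuotientGroup.lift K ρ le_rfl, fun g => rfl, fun q hq => by
    obtain ⟨g, rfl⟩ := QuotientGroup.mk_surjective q
    exact (QuotientGroup.eq_one_iff g).2 hq⟩
  have := Fintype.ofFinite (G ⧸ K)
  obtain ⟨g0, w0, h0⟩ := hnt
  obtain ⟨N, hN, hN0, -, -, hNc, r, hr, hNr, -⟩ := H2.exists_minimal_normal_pgroup
    (⊤ : Subgroup (G ⧸ K)) (fun h => by
      have : (g0 : G ⧸ K) = 1 := Subgroup.mem_bot.1 (h ▸ Subgroup.mem_top _)
      exact h0 (by rw [← hσ, this]; simp))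
  have := Fintype.ofFinite N
  let U : Submodule (ZMod p) W :=
    { carrier := {w | ∀ n ∈ N, σ n w = w}
      add_mem' := fun ha hb n hn => by rw [map_add, ha n hn, hb n hn]
      zero_mem' := fun n _ => map_zero _
      smul_mem' := fun c w hw n hn => by rw [map_smul, hw n hn] }
  have hU : U = ⊥ := (hirr U fun g u hu n hn => by
    rw [← hσ, ← Module.End.mul_apply, ← map_mul,
      show n * g = g * ((g : G ⧸ K)⁻¹ * n * (g : G ⧸ K)⁻¹⁻¹) by group, map_mul,
      Module.End.mul_apply, hu _ (hN.conj_mem n hn _)]).resolve_right fun h => hN0 (by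
      refine eq_bot_iff.2 fun n hn => hinj n (LinearMap.ext fun w => ?_)
      rw [(h ▸ Submodule.mem_top : w ∈ U) n hn]; simp)
  have hpN : ¬ p ∣ Nat.card N := fun hd => by
    have := Fact.mk hr
    obtain ⟨k, hk⟩ := hNr.exists_card_eq
    have hpr : p = r := (Nat.prime_dvd_prime_iff_eq hp.out hr).1 (hp.out.dvd_of_dvd_pow (hk ▸ hd))
    subst hpr
    let _ : MulAction N W :=
      { smul := fun n w => σ n w
        one_smul := fun w => by show σ 1 w = w; simp
        mul_smul := fun a b w => by show σ (a * b) w = σ a (σ b w); simp }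
    have hW : p ∣ Nat.card W := by
      rw [card_eq_pow_zmod p W]
      have : Nontrivial W := ⟨_, _, h0⟩
      exact dvd_pow_self _ Module.finrank_pos.ne'
    obtain ⟨b, hb, hb0⟩ := hNr.exists_fixed_point_of_prime_dvd_card_of_fixed_point W hW
      (a := 0) fun n => map_zero (σ n)
    exact hb0 (Eq.symm (show b ∈ (⊥ : Submodule (ZMod p) W) from hU ▸ fun n hn => hb ⟨n, hn⟩))
  have h1 : ∀ q : G ⧸ K, 2 * ∑ n : N, finrank (ZMod p) (fixSp σ (q * n)) ≤
      Nat.card N * finrank (ZMod p) W := fun q => by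
    have := avg_fix_coset σ N (fun a ha b hb => congrArg Subtype.val
      (hNc.is_comm.comm (⟨a, ha⟩ : N) ⟨b, hb⟩))
      hpN q _ ⊤ rfl (fun _ _ _ _ => trivial) (fun _ _ => trivial)
      fun w _ hw => (hU ▸ hw : w ∈ (⊥ : Submodule (ZMod p) W))
    rwa [finrank_top, Finset.sum_congr rfl fun (n : N) _ => by rw [top_inf_eq]] at this
  have h2 := Finset.sum_le_sum fun q (_ : q ∈ Finset.univ) => h1 q
  have h5 : ∀ n : N, ∑ q, finrank (ZMod p) (fixSp σ (q * n)) = _ := fun n =>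
    Equiv.sum_comp (Equiv.mulRight (n : G ⧸ K)) fun q => finrank (ZMod p) (fixSp σ q)
  rw [← Finset.mul_sum, Finset.sum_comm, Finset.sum_congr rfl fun (n : N) _ => h5 n] at h2
  simp only [Finset.sum_const, Finset.card_univ, smul_eq_mul, ← Nat.card_eq_fintype_card] at h2
  have h3 : ∑ g, finrank (ZMod p) (fixSp ρ g) =
      Nat.card K * ∑ q, finrank (ZMod p) (fixSp σ q) := by
    have := sum_comp_of_surjective (QuotientGroup.mk' K) (QuotientGroup.mk'_surjective K)
      fun q => (finrank (ZMod p) (fixSp σ q) : ℂ)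
    rw [QuotientGroup.ker_mk', Finset.sum_congr rfl (g := fun g => (finrank (ZMod p) (fixSp ρ g) : ℂ))
      fun g _ => by rw [fixSp, fixSp, ← hσ]; rfl] at this
    exact_mod_cast this
  have h4 : 2 * ∑ q, finrank (ZMod p) (fixSp σ q) ≤ Nat.card (G ⧸ K) * finrank (ZMod p) W :=
    Nat.le_of_mul_le_mul_left (by nlinarith) (Nat.card_pos (α := N))
  rw [h3, Subgroup.card_eq_card_quotient_mul_card_subgroup K]
  nlinarith

end Cfsg.Agent.Lead
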