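import Cfsg.Agent.Lib.Lead.Knorr2
import Cfsg.Agent.Lib.H4.SelfDual2
import Cfsg.Agent.Lib.H3.Equiv

/-!
# Good functions from Weil-type characters; quadratic Gauss sums
-/

set_option autoImplicit false

open scoped ComplexConjugate
open Cfsg Cfsg.Agent.H3 Cfsg.Agent.H4

namespace Cfsg.Agent.Lead

variable {p : ℕ} [hp : Fact p.Prime] {H : Type*} [Group H] {W : Type*} [AddCommGroup W]
  [Module (ZMod p) W]

/-- The fixed space of `h`. -/
def fixSp (ρ : Representation (ZMod p) H W) (h : H) : Submodule (ZMod p) W :=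
  LinearMap.ker (ρ h - LinearMap.id)

theorem mem_fixSp {ρ : Representation (ZMod p) H W} {h : H} {w : W} :
    w ∈ fixSp ρ h ↔ ρ h w = w := by
  simp [fixSp, sub_eq_zero]

theorem card_fixSp (ρ : Representation (ZMod p) H W) (h : H) :
    Nat.card (fixSp ρ h) = Nat.card {w // ρ h w = w} :=
  Nat.card_congr (Equiv.subtypeEquivRight fun _ => mem_fixSp)

theorem card_eq_pow_zmod (p : ℕ) [Fact p.Prime] (W : Type*) [AddCommGroup W] [Module (ZMod p) W]
    [Finite W] : Nat.card W = p ^ Module.finrank (ZMod p) W := by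
  rw [Module.natCard_eq_pow_finrank (K := ZMod p), Nat.card_zmod]

theorem exists_KGood_of_weil [Finite H] [Finite W] (hc : p.Coprime (Nat.card H))
    {M : Ideal AlgInt} [hM : M.IsPrime] (hpM : (p : AlgInt) ∈ M)
    (ρ : Representation (ZMod p) H W) {ξ : H → ℂ} (hξ : ξ ∈ intChars H)
    (hcm : ∀ h, ξ h ∈ cmField) (hn : ∀ h, ξ h * conj (ξ h) = Nat.card (fixSp ρ h))
    (hi : ∀ h, IsIntegral ℤ (ξ h ^ 2 / Nat.card (fixSp ρ h))) : ∃ ψ, KGood M ρ ψ := by
  have hF : ∀ h, (Nat.card (fixSp ρ h) : ℂ) ≠ 0 := fun h => by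
    exact_mod_cast (Nat.card_pos (α := fixSp ρ h)).ne'
  have h0 : ∀ h, ξ h ≠ 0 := fun h h1 => hF h (by rw [← hn, h1, zero_mul])
  have h0' : ∀ h, conj (ξ h) ≠ 0 := fun h => (map_ne_zero _).2 (h0 h)
  have hF1 : fixSp ρ 1 = ⊤ := eq_top_iff.2 fun w _ => mem_fixSp.2 (by simp)
  have hW : Nat.card (fixSp ρ 1) = Nat.card W := by rw [hF1]; exact Nat.card_congr Submodule.topEquiv.toEquiv
  set d : H → ℕ := fun h => Module.finrank (ZMod p) W - Module.finrank (ZMod p) (fixSp ρ h)
  have hd : ∀ h, p ^ d h * Nat.card (fixSp ρ h) = Nat.card W := fun h => by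
    rw [card_eq_pow_zmod p (fixSp ρ h), card_eq_pow_zmod p W, ← pow_add,
      Nat.sub_add_cancel (Submodule.finrank_le _)]
  have hdc : ∀ h, (p : ℂ) ^ d h * Nat.card (fixSp ρ h) = Nat.card (fixSp ρ 1) := fun h => by
    rw [hW]; exact_mod_cast hd h
  have hsq : ∀ h, (ξ 1 / ξ h) ^ 2 = (p : ℂ) ^ d h * (ξ 1 ^ 2 / Nat.card (fixSp ρ 1) *
      conj (ξ h ^ 2 / Nat.card (fixSp ρ h))) := fun h => by
    have e1 : conj (ξ h) = Nat.card (fixSp ρ h) / ξ h := by
      rw [eq_div_iff (h0 h), mul_comm, hn]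
    have := hF h
    have := h0 h
    have hp0 : (p : ℂ) ≠ 0 := by exact_mod_cast hp.out.ne_zero
    rw [map_div₀, map_pow, map_natCast, e1, ← hdc h]
    field_simp
  have hnorm : ∀ h, ξ 1 / ξ h * conj (ξ 1 / ξ h) = (p ^ d h : ℕ) := fun h => by
    rw [map_div₀, div_mul_div_comm, hn, hn, ← hdc h, mul_div_assoc, div_self (hF h)]; simp
  have hint : ∀ h, IsIntegral ℤ (ξ 1 / ξ h) := fun h => by
    refine IsIntegral.of_pow two_pos ?_
    rw [hsq]
    exact ((isIntegral_natCast' p).pow _).mul ((hi 1).mul (isIntegral_conj (hi h)))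
  refine ⟨fun h => ξ 1 / ξ h, mem_intChars_of_mul hc hξ (fun g => ⟨_, by
      rw [hn, card_eq_pow_zmod p (fixSp ρ g), Nat.cast_pow]⟩) hp.out.ne_zero hint
      (intChars_isIntegral hξ 1) fun g => div_mul_cancel₀ _ (h0 g), fun h hh hm => ?_,
    fun h hh => ?_, fun h => div_mem (hcm 1) (hcm h), fun h => ⟨p ^ d h, hnorm h, ?_⟩⟩
  · have : fixSp ρ h = ⊤ := eq_top_iff.2 fun w _ => mem_fixSp.2 (hh w)
    have hd0 : d h = 0 := by simp only [d]; rw [this]; simp
    have := mul_mem_idealSet' hm (isIntegral_conj (hint h))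
    rw [hnorm, hd0] at this
    exact one_notMem_idealSet (by simpa using this)
  · have hlt : fixSp ρ h ≠ ⊤ := fun h1 => hh fun w => mem_fixSp.1 (h1 ▸ Submodule.mem_top)
    have hd0 : d h ≠ 0 := Nat.sub_ne_zero_of_lt (Submodule.finrank_lt hlt)
    obtain ⟨k, hk⟩ := Nat.exists_eq_succ_of_ne_zero hd0
    have : ξ 1 / ξ h * (ξ 1 / ξ h) ∈ idealSet M := by
      rw [← sq, hsq, hk, pow_succ', mul_assoc]
      exact p_mul_mem_idealSet hpM
        (((isIntegral_natCast' p).pow _).mul ((hi 1).mul (isIntegral_conj (hi h))))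
    exact (mem_or_mem_idealSet (hint h) (hint h) this).elim id id
  · rw [← card_fixSp, hd]

/-- Averaging over the cyclic group generated by `h`. -/
theorem exists_avg [Finite H] (hc : p.Coprime (Nat.card H)) (ρ : Representation (ZMod p) H W)
    (h : H) (w : W) : ∃ (n : ZMod p) (c : W), n ≠ 0 ∧ c ∈ fixSp ρ h ∧
      n • w - c ∈ LinearMap.range (ρ h - LinearMap.id) ∧
      ∀ β : LinearMap.BilinForm (ZMod p) W, (∀ g x y, β (ρ g x) (ρ g y) = β x y) →
        ∀ u ∈ fixSp ρ h, β u c = n * β u w := by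
  have hpow : ∀ u ∈ fixSp ρ h, ∀ i : ℕ, ρ (h ^ i) u = u := fun u hu i => by
    induction i with
    | zero => simp
    | succ i ih => rw [pow_succ, map_mul, Module.End.mul_apply, mem_fixSp.1 hu, ih]
  refine ⟨Nat.card H, ∑ i ∈ Finset.range (Nat.card H), ρ (h ^ i) w, ?_, ?_, ?_, ?_⟩
  · rw [Ne, ZMod.natCast_eq_zero_iff]; exact (hp.out.coprime_iff_not_dvd).1 hc
  · rw [mem_fixSp, map_sum]
    have h1 := Finset.sum_range_succ (fun i => ρ (h ^ i) w) (Nat.card H)
    rw [Finset.sum_range_succ', pow_card_eq_one', pow_zero] at h1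
    rw [← add_right_cancel h1]
    refine Finset.sum_congr rfl fun i _ => ?_
    rw [pow_succ', map_mul, Module.End.mul_apply]
  · have : (Nat.card H : ZMod p) • w = ∑ _i ∈ Finset.range (Nat.card H), w := by
      simp [Nat.cast_smul_eq_nsmul]
    rw [this, ← Finset.sum_sub_distrib]
    refine sum_mem fun i hi => ?_
    clear hi
    induction i with
    | zero => simp
    | succ i ih =>
      have : w - ρ (h ^ (i + 1)) w = (w - ρ (h ^ i) w) - 
          (ρ h - LinearMap.id : W →ₗ[ZMod p] W) (ρ (h ^ i) w) := by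
        rw [pow_succ', map_mul]; simp
      rw [this]
      exact sub_mem ih (LinearMap.mem_range_self _ _)
  · intro β hβ u hu
    rw [map_sum, Finset.sum_congr rfl fun i _ => by rw [← hpow u hu i, hβ]]
    simp

theorem nondeg_fixSp [Finite H] (hc : p.Coprime (Nat.card H)) (ρ : Representation (ZMod p) H W)
    (β : LinearMap.BilinForm (ZMod p) W) (hβ : ∀ g x y, β (ρ g x) (ρ g y) = β x y)
    (hnd : ∀ x, (∀ y, β x y = 0) → x = 0) (h : H) {u : W} (hu : u ∈ fixSp ρ h)
    (h0 : ∀ y ∈ fixSp ρ h, β u y = 0) : u = 0 := by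
  refine hnd u fun w => ?_
  obtain ⟨n, c, hn, hc, -, h1⟩ := exists_avg hc ρ h w
  have := h1 β hβ u hu
  rw [h0 c hc] at this
  exact (mul_eq_zero.1 this.symm).resolve_left hn

theorem sum_stdAddChar_linear {C : Type*} [AddCommGroup C] [Module (ZMod p) C] [Fintype C]
    [DecidableEq (C →ₗ[ZMod p] ZMod p)] (f : C →ₗ[ZMod p] ZMod p) :
    ∑ v, ZMod.stdAddChar (f v) = if f = 0 then (Nat.card C : ℂ) else 0 := by
  split_ifs with h
  · simp [h]
  · have := AddChar.sum_eq_zero_iff_ne_zero
      (ψ := (ZMod.stdAddChar (N := p)).compAddMonoidHom f.toAddMonoidHom)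
    refine this.2 fun h0 => h (LinearMap.ext fun v => ?_)
    have h1 := DFunLike.congr_fun h0 v
    simp only [AddChar.compAddMonoidHom_apply, LinearMap.toAddMonoidHom_coe,
      AddChar.zero_apply] at h1
    exact ZMod.injective_stdAddChar (h1.trans (AddChar.map_zero_eq_one _).symm)

theorem conj_stdAddChar (a : ZMod p) :
    conj (ZMod.stdAddChar a : ℂ) = ZMod.stdAddChar (-a) := by
  rw [AddChar.map_neg_eq_conj]

theorem stdAddChar_pow (a : ZMod p) : (ZMod.stdAddChar a : ℂ) ^ p = 1 := by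
  rw [← AddChar.map_nsmul_eq_pow, nsmul_eq_mul, CharP.cast_eq_zero, zero_mul,
    AddChar.map_zero_eq_one]

theorem quad_gauss {C : Type*} [AddCommGroup C] [Module (ZMod p) C] [Fintype C]
    (B : LinearMap.BilinForm (ZMod p) C) (hnd : ∀ x, (∀ y, B x y + B y x = 0) → x = 0) :
    (∑ u, ZMod.stdAddChar (B u u)) * conj (∑ u, ZMod.stdAddChar (B u u)) = Nat.card C ∧
    ((∑ u, ZMod.stdAddChar (B u u)) ^ 2 / Nat.card C) ^ 2 = 1 := by
  classical
  set e := ZMod.stdAddChar (N := p)
  set η := ∑ u, e (B u u) with hη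
  have h1 : η * conj η = Nat.card C := by
    have : η * conj η = ∑ u, e (B u u) * ∑ v, e ((B u + B.flip u) v) := by
      rw [hη, map_sum, Finset.sum_mul_sum, Finset.sum_comm]
      simp only [Finset.mul_sum]
      rw [Finset.sum_comm (f := fun u v => e (B u u) * e ((B u + B.flip u) v))]
      refine Finset.sum_congr rfl fun v _ => ?_
      rw [← Equiv.sum_comp (Equiv.addRight v)]
      refine Finset.sum_congr rfl fun u _ => ?_
      rw [conj_stdAddChar, ← AddChar.map_add_eq_mul, ← AddChar.map_add_eq_mul]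
      congr 1
      simp; ring
    rw [this, Finset.sum_eq_single 0]
    · simp
    · intro u _ hu
      rw [sum_stdAddChar_linear, if_neg, mul_zero]
      exact fun h0 => hu (hnd u fun y => by simpa using LinearMap.congr_fun h0 y)
    · simp
  refine ⟨h1, ?_⟩
  obtain ⟨a, b, hab⟩ := ZMod.sq_add_sq p (-1)
  have h2 : conj (η ^ 2) = η ^ 2 := by
    have hT : Function.Bijective fun x : C × C => (a • x.1 + b • x.2, a • x.2 - b • x.1) := by
      refine Finite.injective_iff_bijective.1 fun x y hxy => ?_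
      simp only [Prod.mk.injEq] at hxy
      have k : ∀ x : C × C, x = (-(a • (a • x.1 + b • x.2) - b • (a • x.2 - b • x.1)),
          -(b • (a • x.1 + b • x.2) + a • (a • x.2 - b • x.1))) := fun x => by
        have k1 : ∀ z : C, z = -((a ^ 2 + b ^ 2) • z) := fun z => by rw [hab]; simp
        refine Prod.ext ((k1 _).trans ?_) ((k1 _).trans ?_) <;> simp only <;> module
      rw [k x, k y, hxy.1, hxy.2]
    have e1 : η ^ 2 = ∑ x : C × C, e (B x.1 x.1 + B x.2 x.2) := by
      rw [sq, hη, Finset.sum_mul_sum, Fintype.sum_prod_type]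
      simp only [AddChar.map_add_eq_mul]
    rw [e1, map_sum]
    rw [← Function.Bijective.sum_comp hT (fun x : C × C => e (B x.1 x.1 + B x.2 x.2))]
    refine Finset.sum_congr rfl fun x _ => ?_
    rw [conj_stdAddChar]
    congr 1
    simp only [map_add, map_sub, map_smul, LinearMap.add_apply, LinearMap.sub_apply,
      LinearMap.smul_apply, smul_eq_mul]
    linear_combination (-(B x.1 x.1 + B x.2 x.2)) * hab
  have hC : (Nat.card C : ℂ) ≠ 0 := by exact_mod_cast (Nat.card_pos (α := C)).ne'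
  rw [div_pow, div_eq_one_iff_eq (pow_ne_zero _ hC), ← h1, mul_pow, ← map_pow, h2, sq]

theorem exists_KGood_quad [Finite H] [Finite W] (hc : p.Coprime (Nat.card H))
    {M : Ideal AlgInt} [hM : M.IsPrime] (hpM : (p : AlgInt) ∈ M)
    (ρ : Representation (ZMod p) H W) (B : LinearMap.BilinForm (ZMod p) W)
    (hB : ∀ g x y, B (ρ g x) (ρ g y) = B x y) (hnd : ∀ x, (∀ y, B x y + B y x = 0) → x = 0) :
    ∃ ψ, KGood M ρ ψ := by
  classical
  have := Fintype.ofFinite W
  set e := ZMod.stdAddChar (N := p)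
  have key : ∀ h, _ := fun h => quad_gauss (B.restrict (fixSp ρ h)) fun x hx => Subtype.ext
    (nondeg_fixSp hc ρ (B + B.flip) (fun g x y => by simp [hB]) (fun x hx => hnd x fun y => by
      simpa using hx y) h x.2 fun y hy => by simpa using hx ⟨y, hy⟩)
  refine exists_KGood_of_weil hc hpM ρ (ξ := fun h => ∑ u : fixSp ρ h, e (B u u)) ?_
    (fun h => sum_mem fun u _ => mem_cmField_of_pow hp.out.ne_zero (stdAddChar_pow _))
    (fun h => (key h).1) fun h => isIntegral_of_pow_eq_one two_ne_zero (key h).2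
  have hact : ∀ a : ZMod p, (fun h => (Nat.card {u : fixSp ρ h // B u u = a} : ℂ)) ∈ intChars H := by
    intro a
    let _ : MulAction H {u : W // B u u = a} :=
      { smul := fun h u => ⟨ρ h u, by rw [hB, u.2]⟩
        one_smul := fun u => Subtype.ext (by show ρ 1 u = u; simp)
        mul_smul := fun g h u => Subtype.ext (by show ρ (g * h) u = ρ g (ρ h u); simp) }
    convert char_mem_intChars (isCharacter_permChar (G := H) {u : W // B u u = a}) using 2 with h
    simp only [permChar, Nat.cast_inj]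
    exact Nat.card_congr
      { toFun := fun u => ⟨⟨u.1.1, u.2⟩, Subtype.ext (mem_fixSp.1 u.1.2)⟩
        invFun := fun u => ⟨⟨u.1.1, mem_fixSp.2 (congrArg Subtype.val u.2)⟩, u.1.2⟩
        left_inv := fun _ => rfl
        right_inv := fun _ => rfl }
  have : (fun h => ∑ u : fixSp ρ h, e (B u u)) =
      ∑ a : ZMod p, e a • fun h => (Nat.card {u : fixSp ρ h // B u u = a} : ℂ) := by
    ext h
    rw [Finset.sum_apply, ← Finset.sum_fiberwise (g := fun u : fixSp ρ h => B u u)]
    refine Finset.sum_congr rfl fun a _ => ?_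
    rw [Finset.sum_congr rfl (g := fun _ => e a) fun u hu => by rw [(Finset.mem_filter.1 hu).2]]
    simp [Fintype.card_subtype, mul_comm]
  rw [this]
  exact sum_mem fun a _ => smul_mem_intChars
    (isIntegral_of_pow_eq_one hp.out.ne_zero (stdAddChar_pow a)) (hact a)

theorem exists_KGood_two [Finite H] [Finite W] (h2 : (2 : ZMod p) = 0)
    (hc : p.Coprime (Nat.card H))
    {M : Ideal AlgInt} [hM : M.IsPrime] (hpM : (p : AlgInt) ∈ M)
    (ρ : Representation (ZMod p) H W) (A : LinearMap.BilinForm (ZMod p) W)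
    (hA : ∀ g x y, A (ρ g x) (ρ g y) = A x y) (halt : ∀ x, A x x = 0)
    (hnd : ∀ x, (∀ y, A x y = 0) → x = 0) : ∃ ψ, KGood M ρ ψ := by
  classical
  have := Fintype.ofFinite H
  set b := Module.finBasis (ZMod p) W
  set B0 : LinearMap.BilinForm (ZMod p) W :=
    Matrix.toBilin b (Matrix.of fun i j => if i < j then A (b i) (b j) else 0) with hB0
  have hneg : ∀ x : ZMod p, -x = x := fun x => by linear_combination (-x) * h2
  have hsym : ∀ x y, A x y = A y x := fun x y => by
    have := halt (x + y)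
    simp only [map_add, LinearMap.add_apply, halt] at this
    rw [← hneg (A y x)]; linear_combination this
  have h1 : B0 + B0.flip = A := by
    refine LinearMap.BilinForm.ext_basis b fun i j => ?_
    have e : ∀ i j, B0 (b i) (b j) = if i < j then A (b i) (b j) else 0 := fun i j => by
      rw [hB0, ← LinearMap.BilinForm.toMatrix_apply b, LinearMap.BilinForm.toMatrix_toBilin]; rfl
    simp only [LinearMap.add_apply, LinearMap.BilinForm.flip_apply, e]
    rcases lt_trichotomy i j with h | h | h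
    · simp [h, h.not_gt]
    · simp [h, halt]
    · simp [h, h.not_gt, hsym]
  refine exists_KGood_quad hc hpM ρ (∑ g : H, B0.comp (ρ g) (ρ g)) (fun g x y => ?_) fun x hx => ?_
  · simp only [LinearMap.sum_apply, LinearMap.BilinForm.comp_apply]
    rw [← Equiv.sum_comp (Equiv.mulRight g) (fun k => B0 (ρ k x) (ρ k y))]
    simp
  · refine hnd x fun y => ?_
    have := hx y
    simp only [LinearMap.sum_apply, LinearMap.BilinForm.comp_apply, ← Finset.sum_add_distrib] at this
    rw [Finset.sum_congr rfl (g := fun _ => A x y) fun g _ => by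
      rw [← hA g, ← h1]; simp] at this
    simp only [Finset.sum_const, Finset.card_univ, nsmul_eq_mul, mul_eq_zero] at this
    refine this.resolve_left ?_
    rw [ZMod.natCast_eq_zero_iff, ← Nat.card_eq_fintype_card]
    exact (hp.out.coprime_iff_not_dvd).1 hc

end Cfsg.Agent.Lead
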