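import Cfsg.Agent.Lib.H4.Misc3

/-!
# Sums of squares of `p'`-degrees and the Sylow normaliser
-/

set_option autoImplicit false

open scoped ComplexConjugate Pointwise commutatorElement

namespace Cfsg.Agent.Lead

open Cfsg H3 H4

variable {G : Type*} [Group G] [Finite G] {p : ℕ} [hp : Fact p.Prime]

theorem oddsq_charDegree_dvd_card {χ : G → ℂ} (hχ : IsIrrCharacter G χ) :
    charDegree χ ∣ Nat.card G := by
  have := charDegree_dvd_index_abelian_normal hχ ⊥ (by
    intro a ha b hb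
    rw [Subgroup.mem_bot.mp ha, Subgroup.mem_bot.mp hb])
  rwa [Subgroup.index_bot] at this

/-- with a normal Sylow subgroup `Q`, `p'`-degree means `Q'` in the kernel -/
theorem oddsq_not_dvd_iff (Q : Subgroup G) [Q.Normal] (hQ : IsPGroup p Q) (hi : ¬ p ∣ Q.index)
    (ψ : IrrCharacter G) :
    ¬ p ∣ charDegree (ψ : G → ℂ) ↔ ∀ x ∈ ⁅Q, Q⁆, (ψ : G → ℂ) x = (ψ : G → ℂ) 1 := by
  classical
  have := Fintype.ofFinite G
  have := Fintype.ofFinite Q
  constructor
  · intro h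
    have hle : ⁅Q, Q⁆ ≤ charKer (irr_isChar ψ) := by
      rw [Subgroup.commutator_le]
      intro a ha b hb
      rw [mem_charKer]
      have hres := IsCharacter_restrict Q (irr_isChar ψ)
      have h1 := char_eq_sum_mult hres
      have h2 := congrFun h1 ((⟨a, ha⟩ : Q) * ⟨b, hb⟩ * (⟨a, ha⟩ : Q)⁻¹ * (⟨b, hb⟩ : Q)⁻¹)
      have h3 := congrFun h1 1
      simp only [Finset.sum_apply, Pi.smul_apply, smul_eq_mul] at h2 h3
      refine (h2.trans (Finset.sum_congr rfl fun θ _ => ?_)).trans h3.symm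
      by_cases h0 : mult (fun q : Q => (ψ : G → ℂ) q) θ = 0
      · rw [h0]; simp
      · congr 1
        have h4 := charDegree_dvd_of_const ψ.2 θ.2
          (fun h5 => h0 ((mult_eq_zero_iff hres (irr_isChar θ)).mpr h5))
        obtain ⟨k, hk⟩ := IsPGroup.iff_card.mp hQ
        have h5 := oddsq_charDegree_dvd_card θ.2
        rw [hk] at h5
        obtain ⟨j, -, hj⟩ := (Nat.dvd_prime_pow hp.out).mp h5
        have h6 : j = 0 := by
          by_contra h7
          exact h ((dvd_pow_self p h7).trans (hj ▸ h4))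
        rw [h6, pow_zero] at hj
        exact linear_commutator (irr_isChar θ)
          (by rw [← charDegree_cast (irr_isChar θ), hj, Nat.cast_one]) _ _
    exact fun x hx => (mem_charKer _).mp (hle hx)
  · intro hθ
    obtain ⟨b, hb, hbθ⟩ := IsIrrCharacter_exists_deflate ψ.2 _ hθ
    have := Subgroup.Normal.map ‹Q.Normal› _ (QuotientGroup.mk'_surjective ⁅Q, Q⁆)
    have h1 := charDegree_dvd_index_abelian_normal hb (Q.map (QuotientGroup.mk' ⁅Q, Q⁆)) (by
      rintro _ ⟨y, hy, rfl⟩ _ ⟨z, hz, rfl⟩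
      rw [← map_mul, ← map_mul, QuotientGroup.mk'_apply, QuotientGroup.mk'_apply,
        QuotientGroup.eq_iff_div_mem]
      have := Subgroup.commutator_mem_commutator hy hz
      simpa [commutatorElement_def, div_eq_mul_inv, mul_assoc] using this)
    have h2 : charDegree (ψ : G → ℂ) = charDegree b := by
      simp only [charDegree, ← hbθ 1, QuotientGroup.mk_one]
    intro h3
    exact hi ((h3.trans (h2 ▸ h1)).trans
      (Subgroup.index_map_dvd _ (QuotientGroup.mk'_surjective _)))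

theorem oddsq_card_eq (Q : Subgroup G) [Q.Normal] (hQ : IsPGroup p Q) (hi : ¬ p ∣ Q.index) :
    Nat.card G = Nat.card (⁅Q, Q⁆ : Subgroup G) *
      ∑ᶠ ψ : {ψ : IrrCharacter G // ¬ p ∣ charDegree (ψ : G → ℂ)},
        charDegree (ψ.1 : G → ℂ) ^ 2 := by
  classical
  rw [← Subgroup.card_mul_index ⁅Q, Q⁆, Subgroup.index, ← sum_charDegree_sq (G ⧸ ⁅Q, Q⁆),
    finsum_eq_sum_of_fintype]
  congr 1
  refine Fintype.sum_equiv ((irrQuotientEquiv ⁅Q, Q⁆).trans
    (Equiv.subtypeEquivRight fun ψ => (oddsq_not_dvd_iff Q hQ hi ψ).symm)) _ _ fun b => ?_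
  rfl

/-- a subgroup of `p'`-index -/
theorem oddsq_exists_over (N : Subgroup G) [Fintype G] [Fintype N] (hi : ¬ p ∣ N.index)
    (ψ : IrrCharacter N) (hψ : ¬ p ∣ charDegree (ψ : N → ℂ)) :
    ∃ χ : IrrCharacter G, ¬ p ∣ charDegree (χ : G → ℂ) ∧
      mult (fun n : N => (χ : G → ℂ) n) ψ ≠ 0 := by
  by_contra hcon
  push Not at hcon
  have h1 := charDegree_eq_sum_mult (isCharacter_indFun N (irr_isChar ψ))
  rw [charDegree_indFun _ (irr_isChar ψ)] at h1
  have h2 : p ∣ N.index * charDegree (ψ : N → ℂ) := by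
    rw [h1]
    refine Finset.dvd_sum fun χ _ => ?_
    by_cases h : p ∣ charDegree (χ : G → ℂ)
    · exact h.mul_left _
    · rw [mult_ind_irr _ (IsIrrCharacter_isClassFunction χ.2), hcon χ h, zero_mul]
      exact dvd_zero p
  rcases (Nat.Prime.dvd_mul hp.out).mp h2 with h | h
  · exact hi h
  · exact hψ h

theorem oddsq_sum_sq_le {ι : Type*} (s : Finset ι) (d : ι → ℕ) :
    ∑ i ∈ s, d i ^ 2 ≤ (∑ i ∈ s, d i) ^ 2 := by
  classical
  induction s using Finset.induction_on with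
  | empty => simp
  | insert a s ha ih =>
    rw [Finset.sum_insert ha, Finset.sum_insert ha]
    nlinarith [Nat.zero_le (d a * ∑ i ∈ s, d i)]

theorem oddsq_le_and_eq (N : Subgroup G) (hi : ¬ p ∣ N.index) :
    (∑ᶠ ψ : {ψ : IrrCharacter N // ¬ p ∣ charDegree (ψ : N → ℂ)}, charDegree (ψ.1 : N → ℂ) ^ 2 ≤
      ∑ᶠ χ : {χ : IrrCharacter G // ¬ p ∣ charDegree (χ : G → ℂ)},
        charDegree (χ.1 : G → ℂ) ^ 2) ∧
    (∑ᶠ ψ : {ψ : IrrCharacter N // ¬ p ∣ charDegree (ψ : N → ℂ)}, charDegree (ψ.1 : N → ℂ) ^ 2 =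
      ∑ᶠ χ : {χ : IrrCharacter G // ¬ p ∣ charDegree (χ : G → ℂ)},
        charDegree (χ.1 : G → ℂ) ^ 2 →
      ∀ θ : IrrCharacter N, ¬ p ∣ charDegree (θ : N → ℂ) →
        ∃ χ : IrrCharacter G, ∀ x : N, (χ : G → ℂ) x = (θ : N → ℂ) x) := by
  classical
  have := Fintype.ofFinite G
  have := Fintype.ofFinite N
  rw [finsum_eq_sum_of_fintype, finsum_eq_sum_of_fintype]
  choose f hf1 hf2 using fun ψ : {ψ : IrrCharacter N // ¬ p ∣ charDegree (ψ : N → ℂ)} =>
    oddsq_exists_over N hi ψ.1 ψ.2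
  let F : {ψ : IrrCharacter N // ¬ p ∣ charDegree (ψ : N → ℂ)} →
      {χ : IrrCharacter G // ¬ p ∣ charDegree (χ : G → ℂ)} := fun ψ => ⟨f ψ, hf1 ψ⟩
  have hfib : ∀ χ : {χ : IrrCharacter G // ¬ p ∣ charDegree (χ : G → ℂ)},
      ∑ ψ ∈ Finset.univ.filter (fun ψ => F ψ = χ), charDegree (ψ.1 : N → ℂ) ≤
        charDegree (χ.1 : G → ℂ) := by
    intro χ
    have hres := IsCharacter_restrict N (irr_isChar χ.1)
    have h1 := charDegree_eq_sum_mult hres
    have h2 : charDegree (fun n : N => (χ.1 : G → ℂ) n) = charDegree (χ.1 : G → ℂ) := rfl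
    rw [← h2, h1]
    have h3 : ∑ ψ ∈ Finset.univ.filter (fun ψ => F ψ = χ), charDegree (ψ.1 : N → ℂ) =
        ∑ ψ ∈ (Finset.univ.filter (fun ψ => F ψ = χ)).image Subtype.val,
          charDegree (ψ : N → ℂ) := by
      rw [Finset.sum_image fun _ _ _ _ h => Subtype.ext h]
    rw [h3]
    refine le_trans (Finset.sum_le_sum fun ψ hψ => ?_)
      (Finset.sum_le_sum_of_subset (Finset.subset_univ _))
    obtain ⟨ψ', hψ', rfl⟩ := Finset.mem_image.mp hψ
    have h4 := (Finset.mem_filter.mp hψ').2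
    have h5 := hf2 ψ'
    rw [show f ψ' = χ.1 from congrArg Subtype.val h4] at h5
    exact Nat.le_mul_of_pos_left _ (Nat.pos_of_ne_zero h5)
  have hfib2 : ∀ χ : {χ : IrrCharacter G // ¬ p ∣ charDegree (χ : G → ℂ)},
      ∑ ψ ∈ Finset.univ.filter (fun ψ => F ψ = χ), charDegree (ψ.1 : N → ℂ) ^ 2 ≤
        charDegree (χ.1 : G → ℂ) ^ 2 := fun χ =>
    (oddsq_sum_sq_le _ _).trans (Nat.pow_le_pow_left (hfib χ) 2)
  rw [← Finset.sum_fiberwise Finset.univ F]
  refine ⟨Finset.sum_le_sum fun χ _ => hfib2 χ, fun heq θ hθ => ?_⟩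
  have h1 := (Finset.sum_eq_sum_iff_of_le fun χ _ => hfib2 χ).mp heq (F ⟨θ, hθ⟩)
    (Finset.mem_univ _)
  have h2 := hfib (F ⟨θ, hθ⟩)
  have hm : (⟨θ, hθ⟩ : {ψ : IrrCharacter N // ¬ p ∣ charDegree (ψ : N → ℂ)}) ∈
      Finset.univ.filter (fun ψ => F ψ = F ⟨θ, hθ⟩) := by simp
  rw [← Finset.add_sum_erase _ _ hm] at h1 h2
  have h3 := oddsq_sum_sq_le ((Finset.univ.filter (fun ψ => F ψ = F ⟨θ, hθ⟩)).erase ⟨θ, hθ⟩)
    (fun ψ => charDegree (ψ.1 : N → ℂ))
  have h4 := charDegree_pos θ.2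
  have h5 : charDegree ((F ⟨θ, hθ⟩).1 : G → ℂ) ≤ charDegree (θ : N → ℂ) := by
    simp only at h1 h2 h3
    generalize ∑ ψ ∈ (Finset.univ.filter (fun ψ => F ψ = F ⟨θ, hθ⟩)).erase ⟨θ, hθ⟩,
      charDegree (ψ.1 : N → ℂ) = r at h2 h3
    generalize ∑ ψ ∈ (Finset.univ.filter (fun ψ => F ψ = F ⟨θ, hθ⟩)).erase ⟨θ, hθ⟩,
      charDegree (ψ.1 : N → ℂ) ^ 2 = t at h1 h3
    generalize charDegree ((F ⟨θ, hθ⟩).1 : G → ℂ) = D at h1 h2
    generalize charDegree (θ : N → ℂ) = d at h1 h2 h4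
    have h6 : r = 0 := by
      by_contra h7
      have h8 : 0 < d * r := Nat.mul_pos h4 (Nat.pos_of_ne_zero h7)
      have h9 := Nat.pow_le_pow_left h2 2
      nlinarith
    subst h6
    have h7 : t = 0 := by simpa using h3
    subst h7
    rw [add_zero] at h1
    exact (Nat.pow_left_injective two_ne_zero h1).ge
  have hres := IsCharacter_restrict N (irr_isChar (f ⟨θ, hθ⟩))
  have h6 := eq_of_const_of_charDegree_le hres θ.2
    (fun h => hf2 ⟨θ, hθ⟩ ((mult_eq_zero_iff hres (irr_isChar θ)).mpr h)) h5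
  exact ⟨f ⟨θ, hθ⟩, congrFun h6⟩

/-- a normal `p'`-subgroup on which a `p`-subgroup acts without fixed points lies in the kernel
of every irreducible character of `p'`-degree -/
theorem oddsq_le_ker (P K : Subgroup G) [K.Normal] (hP : IsPGroup p P) (hK : ¬ p ∣ Nat.card K)
    (hC : ∀ k ∈ K, (∀ a ∈ P, a * k * a⁻¹ = k) → k = 1) (χ : IrrCharacter G)
    (hχ : ¬ p ∣ charDegree (χ : G → ℂ)) : ∀ k ∈ K, (χ : G → ℂ) k = (χ : G → ℂ) 1 := by
  classical
  have := Fintype.ofFinite G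
  have := Fintype.ofFinite K
  letI := H2.conjAction (A := P) (V := K) (by rw [Subgroup.normalizer_eq_top]; exact le_top)
  have hres := IsCharacter_restrict K (irr_isChar χ)
  have hinv : Inv P (fun k : K => (χ : G → ℂ) k) := fun a k => irr_conj χ k a
  have h1 := dvd_charDegree_sub_sum_inv hP hres hinv
  obtain ⟨⟨θ, hθa⟩, hθ⟩ : ∃ θ : {θ : IrrCharacter K // Inv P (θ : K → ℂ)},
      mult (fun k : K => (χ : G → ℂ) k) θ.1 ≠ 0 := by
    by_contra hcon
    push Not at hcon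
    rw [Finset.sum_eq_zero (fun θ _ => by rw [hcon θ]; simp), sub_zero,
      Int.natCast_dvd_natCast] at h1
    exact hχ h1
  have h2 : (θ : K → ℂ) = fun _ => 1 := by
    by_contra hne
    have h3 := glaub_col_unique (C := (⊥ : Subgroup K)) hP hK (fun k => ⟨fun hk a => by
        rw [Subgroup.mem_bot.mp hk, smul_one], fun hk => Subgroup.mem_bot.mpr (Subtype.ext
          (hC k k.2 fun a ha => congrArg Subtype.val (hk ⟨a, ha⟩)))⟩)
      θ.2 isIrrCharacter_one hθa (fun _ _ => rfl) hne isIrrCharacter_one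
    have h4 : mult (fun c : (⊥ : Subgroup K) => (θ : K → ℂ) c) (fun _ => 1) =
        charDegree (θ : K → ℂ) := by
      apply mult_eq_of_classInner
      rw [charDegree_cast (irr_isChar θ)]
      simp only [classInner, Finset.univ_unique, Finset.sum_singleton, Nat.card_unique,
        Nat.cast_one, inv_one, one_mul, map_one, mul_one]
      rw [Subgroup.mem_bot.mp (default : (⊥ : Subgroup K)).2]
    have h5 : mult (fun _ : (⊥ : Subgroup K) => (1 : ℂ)) (fun _ => 1) = 1 := by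
      apply mult_eq_of_classInner
      simp [classInner]
    rw [h4, h5, mul_one] at h3
    exact hK (h3.trans (oddsq_charDegree_dvd_card θ.2))
  by_contra hcon
  push Not at hcon
  have h3 := classInner_res_one_eq_zero K χ.2 hcon
  rw [← h2] at h3
  exact hθ ((mult_eq_zero_iff hres (irr_isChar θ)).mpr h3)

theorem oddsq_ge_of_complement (P : Sylow p G) {K : Subgroup G} [K.Normal]
    (h2 : K ⊓ Subgroup.normalizer ((P : Subgroup G) : Set G) = ⊥)
    (h1 : K ⊔ Subgroup.normalizer ((P : Subgroup G) : Set G) = ⊤) :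
    ∑ᶠ χ : {χ : IrrCharacter G // ¬ p ∣ charDegree (χ : G → ℂ)}, charDegree (χ.1 : G → ℂ) ^ 2 ≤
    ∑ᶠ ψ : {ψ : IrrCharacter (Subgroup.normalizer ((P : Subgroup G) : Set G)) //
      ¬ p ∣ charDegree (ψ : Subgroup.normalizer ((P : Subgroup G) : Set G) → ℂ)},
      charDegree (ψ.1 : Subgroup.normalizer ((P : Subgroup G) : Set G) → ℂ) ^ 2 := by
  classical
  set N := Subgroup.normalizer ((P : Subgroup G) : Set G) with hN
  have hPN : (P : Subgroup G) ≤ N := Subgroup.le_normalizer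
  have hK : ¬ p ∣ Nat.card K := by
    have := (H1.isSylowIn_inf_normal P K).3
    rwa [show (P : Subgroup G) ⊓ K = ⊥ from eq_bot_iff.mpr fun x hx => h2 ▸ ⟨hx.2, hPN hx.1⟩,
      Subgroup.relIndex_bot_left] at this
  have hker := oddsq_le_ker (P : Subgroup G) K P.2 hK (fun k hk hc => by
    have : k ∈ K ⊓ N := ⟨hk, Subgroup.centralizer_le_normalizer _ fun a ha =>
      mul_inv_eq_iff_eq_mul.mp (hc a ha)⟩
    rwa [h2, Subgroup.mem_bot] at this)
  have hsurj : Function.Surjective ((QuotientGroup.mk' K).comp N.subtype) := by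
    intro y
    obtain ⟨y, rfl⟩ := QuotientGroup.mk_surjective y
    obtain ⟨k, hk, n, hn, rfl⟩ := exists_mul_of_sup_eq_top h1 y
    exact ⟨⟨n, hn⟩, by simp [(QuotientGroup.eq_one_iff _).mpr hk]⟩
  have hirr : ∀ χ : {χ : IrrCharacter G // ¬ p ∣ charDegree (χ : G → ℂ)},
      IsIrrCharacter N (fun n : N => (χ.1 : G → ℂ) n) := by
    intro χ
    obtain ⟨b, hb, hbχ⟩ := IsIrrCharacter_exists_deflate χ.1.2 K (hker χ.1 χ.2)
    have := isIrr_comp_surjective _ hsurj hb
    convert this using 2 with n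
    exact (hbχ n).symm
  let F : {χ : IrrCharacter G // ¬ p ∣ charDegree (χ : G → ℂ)} →
      {ψ : IrrCharacter N // ¬ p ∣ charDegree (ψ : N → ℂ)} := fun χ => ⟨⟨_, hirr χ⟩, χ.2⟩
  have hF : Function.Injective F := by
    intro χ χ' h
    have h3 : (fun n : N => (χ.1 : G → ℂ) n) = fun n : N => (χ'.1 : G → ℂ) n :=
      congrArg (fun ψ => (ψ.1 : N → ℂ)) h
    refine Subtype.ext (Subtype.ext (funext fun y => ?_))
    obtain ⟨k, hk, n, hn, rfl⟩ := exists_mul_of_sup_eq_top h1 y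
    have e1 := IsCharacter_mul_of_eq (irr_isChar χ.1) (hker χ.1 χ.2 k hk) n
    have e2 := IsCharacter_mul_of_eq (irr_isChar χ'.1) (hker χ'.1 χ'.2 k hk) n
    exact e1.trans ((congrFun h3 ⟨n, hn⟩).trans e2.symm)
  rw [finsum_eq_sum_of_fintype, finsum_eq_sum_of_fintype]
  calc _ = ∑ ψ ∈ Finset.univ.image F, charDegree (ψ.1 : N → ℂ) ^ 2 := by
        rw [Finset.sum_image fun _ _ _ _ h => hF h]
        rfl
    _ ≤ _ := Finset.sum_le_sum_of_subset (Finset.subset_univ _)

theorem oddsq_card_normalizer (P : Sylow p G) :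
    Nat.card (Subgroup.normalizer ((P : Subgroup G) : Set G)) = Nat.card (commutator P) *
    ∑ᶠ ψ : {ψ : IrrCharacter (Subgroup.normalizer ((P : Subgroup G) : Set G)) //
      ¬ p ∣ charDegree (ψ : Subgroup.normalizer ((P : Subgroup G) : Set G) → ℂ)},
      charDegree (ψ.1 : Subgroup.normalizer ((P : Subgroup G) : Set G) → ℂ) ^ 2 := by
  set N := Subgroup.normalizer ((P : Subgroup G) : Set G) with hN
  have hPN : (P : Subgroup G) ≤ N := Subgroup.le_normalizer
  have : ((P : Subgroup G).subgroupOf N).Normal :=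
    Subgroup.normal_subgroupOf_of_le_normalizer le_rfl
  rw [oddsq_card_eq (p := p) ((P : Subgroup G).subgroupOf N) (P.2.comap_subtype)
    (H1.isSylowIn_top P |>.mono hPN le_top).3]
  congr 1
  have e1 : (⁅(P : Subgroup G).subgroupOf N, (P : Subgroup G).subgroupOf N⁆ : Subgroup N).map
      N.subtype = (commutator P).map (P : Subgroup G).subtype := by
    rw [Subgroup.map_commutator, Subgroup.map_subgroupOf_eq_of_le hPN, commutator_def,
      Subgroup.map_commutator, ← MonoidHom.range_eq_map, Subgroup.range_subtype]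
  rw [← Subgroup.card_map_of_injective N.subtype_injective, e1,
    Subgroup.card_map_of_injective (P : Subgroup G).subtype_injective]

theorem oddsq_main (P : Sylow p G) :
    Nat.card (Subgroup.normalizer ((P : Subgroup G) : Set G)) ≤ Nat.card (commutator ↥P) *
      (∑ᶠ χ : {χ : IrrCharacter G // ¬ p ∣ charDegree (χ : G → ℂ)},
        charDegree (χ.1 : G → ℂ) ^ 2) ∧
    (Nat.card (Subgroup.normalizer ((P : Subgroup G) : Set G)) = Nat.card (commutator ↥P) *
      (∑ᶠ χ : {χ : IrrCharacter G // ¬ p ∣ charDegree (χ : G → ℂ)},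
        charDegree (χ.1 : G → ℂ) ^ 2) ↔
      ∃ K : Subgroup G, K.Normal ∧ K ⊓ Subgroup.normalizer ((P : Subgroup G) : Set G) = ⊥ ∧
        K ⊔ Subgroup.normalizer ((P : Subgroup G) : Set G) = ⊤) := by
  have hi : ¬ p ∣ (Subgroup.normalizer ((P : Subgroup G) : Set G)).index := fun h =>
    P.not_dvd_index (h.trans (Subgroup.index_dvd_of_le Subgroup.le_normalizer))
  obtain ⟨h1, h2⟩ := oddsq_le_and_eq _ hi
  rw [oddsq_card_normalizer P]
  refine ⟨Nat.mul_le_mul_left _ h1, fun h => ?_, ?_⟩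
  · obtain ⟨K, hK, h3, h4⟩ := exists_normal_complement_of_extend P
      (h2 (Nat.eq_of_mul_eq_mul_left Nat.card_pos h))
    exact ⟨K, hK, h4, h3⟩
  · rintro ⟨K, hK, h3, h4⟩
    rw [le_antisymm h1 (oddsq_ge_of_complement P h3 h4)]
    rfl

end Cfsg.Agent.Lead
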