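import Cfsg.Agent.Lib.Lead.AvgFix
import Cfsg.Agent.Lib.H4.Clifford
import Cfsg.Agent.Lib.H1.SylowIn

/-!
# Degrees of primitive characters of solvable groups and class sizes
-/

set_option autoImplicit false

open scoped ComplexConjugate
open Cfsg Cfsg.Agent.H3 Cfsg.Agent.H4 Module

namespace Cfsg.Agent.Lead

theorem sum_monoidHom_apply {Q : Type*} [CommGroup Q] [Finite Q] [Fintype (Q →* ℂˣ)]
    [DecidableEq Q] (q : Q) :
    ∑ lam : Q →* ℂˣ, (lam q : ℂ) = if q = 1 then (Nat.card Q : ℂ) else 0 := by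
  split_ifs with h
  · simp [h, ← Nat.card_eq_fintype_card, CommGroup.card_monoidHom_of_hasEnoughRootsOfUnity]
  · obtain ⟨μ, hμ⟩ := CommGroup.exists_apply_ne_one_of_hasEnoughRootsOfUnity Q ℂ h
    have h1 := Equiv.sum_comp (Equiv.mulLeft μ) fun lam : Q →* ℂˣ => (lam q : ℂ)
    simp only [Equiv.coe_mulLeft, MonoidHom.mul_apply, Units.val_mul, ← Finset.mul_sum] at h1
    rw [← sub_eq_zero, ← sub_one_mul, mul_eq_zero, sub_eq_zero] at h1
    exact h1.resolve_left fun h => hμ (Units.ext h)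

/-- Ramification over an abelian quotient. -/
theorem sq_dvd_index_of_res_eq {N : Type*} [Group N] [Finite N] (K : Subgroup N) [K.Normal]
    (hab : ∀ a b : N, a * b * a⁻¹ * b⁻¹ ∈ K) {θ : N → ℂ} (hθ : IsIrrCharacter N θ) {φ : K → ℂ}
    (hφ : IsIrrCharacter K φ) {c : ℂ} (h : ∀ k : K, θ k = c * φ k) :
    ∃ e : ℕ, charDegree θ = e * charDegree φ ∧ e ^ 2 ∣ K.index := by
  classical
  have := Fintype.ofFinite N
  obtain ⟨e, he⟩ := IsCharacter_classInner (IsCharacter_restrict K (IsIrrCharacter_isCharacter hθ))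
    (IsIrrCharacter_isCharacter hφ)
  have hc : c = e := by
    rw [← he, show (fun k : K => θ k) = c • φ from funext h, H3.classInner_smul_left,
      IsIrrCharacter_classInner_self hφ, mul_one]
  refine ⟨e, charDegree_eq ?_, ?_⟩
  · rw [Nat.cast_mul, charDegree_irr_cast hφ, ← hc, ← h]; rfl
  let _ : CommGroup (N ⧸ K) := { (inferInstance : Group (N ⧸ K)) with
    mul_comm := fun a b => by
      obtain ⟨a, rfl⟩ := QuotientGroup.mk_surjective a
      obtain ⟨b, rfl⟩ := QuotientGroup.mk_surjective b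
      exact QuotientGroup.eq.2 (by simpa [mul_assoc] using hab b⁻¹ a⁻¹) }
  have : Finite (N ⧸ K →* ℂˣ) := inferInstance
  have := Fintype.ofFinite (N ⧸ K →* ℂˣ)
  let S : Subgroup (N ⧸ K →* ℂˣ) :=
    { carrier := {lam | ∀ g : N, (lam g : ℂ) * θ g = θ g}
      mul_mem' := fun {a b} ha hb g => by
        rw [MonoidHom.mul_apply, Units.val_mul, mul_assoc, hb g, ha g]
      one_mem' := fun g => by simp
      inv_mem' := fun {a} ha g => by
        conv_lhs => rw [← ha g]
        simp }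
  have h1 : ∑ lam : N ⧸ K →* ℂˣ, classInner (fun g : N => (lam g : ℂ) * θ g) θ = Nat.card S := by
    rw [Finset.sum_congr rfl (g := fun lam => if lam ∈ S then 1 else 0) fun lam _ => ?_]
    · simp [Fintype.card_subtype]
    have h2 := IsIrrCharacter_mul_linear hθ (lam.comp (QuotientGroup.mk' K))
    split_ifs with hl
    · rw [show (fun g : N => (lam g : ℂ) * θ g) = θ from funext hl]
      exact IsIrrCharacter_classInner_self hθ
    · exact IsIrrCharacter_classInner_of_ne h2 hθ fun h3 => hl (congrFun h3)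
  have h2 : ∑ lam : N ⧸ K →* ℂˣ, classInner (fun g : N => (lam g : ℂ) * θ g) θ = e ^ 2 := by
    simp only [classInner]
    rw [← Finset.mul_sum, Finset.sum_comm]
    simp only [mul_assoc, ← Finset.sum_mul, sum_monoidHom_apply, QuotientGroup.eq_one_iff, ite_mul,
      zero_mul]
    rw [← Finset.sum_filter, Finset.sum_subtype _ (p := fun g => g ∈ K) (by simp)]
    have h3 := IsIrrCharacter_classInner_self hφ
    simp only [h, hc, map_mul, map_natCast]
    rw [classInner] at h3
    rw [Finset.sum_congr rfl (g := fun k : K => Nat.card (N ⧸ K) * e ^ 2 * (φ k * conj (φ k)))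
      fun k _ => by ring, ← Finset.mul_sum, Subgroup.card_eq_card_quotient_mul_card_subgroup K]
    have := card_ne_zero_complex K
    have := card_ne_zero_complex (N ⧸ K)
    push_cast
    field_simp at h3 ⊢
    rw [h3]
  have h3 : Nat.card S = e ^ 2 := by exact_mod_cast h1.symm.trans h2
  rw [← h3, Subgroup.index, ← CommGroup.card_monoidHom_of_hasEnoughRootsOfUnity (N ⧸ K) ℂ]
  exact S.card_subgroup_dvd_card

variable {G : Type*} [Group G]

theorem exists_res_eq_of_primitive [Fintype G] {χ : G → ℂ} (hχ : IsIrrCharacter G χ)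
    (hprim : ¬ ∃ H : Subgroup G, H ≠ ⊤ ∧ ∃ θ : H → ℂ, IsCharacter H θ ∧ indFun H θ = χ)
    (N : Subgroup G) [N.Normal] :
    ∃ (θ : N → ℂ) (a : ℂ), IsIrrCharacter N θ ∧ a ≠ 0 ∧ ∀ n : N, χ n = a * θ n := by
  have := Fintype.ofFinite N
  obtain ⟨θ, hθ⟩ := IsClassFunction_exists_irr
    (IsClassFunction_restrict N (IsIrrCharacter_isClassFunction hχ))
    fun h => IsIrrCharacter_apply_one_ne_zero hχ (congrFun h 1)
  obtain ⟨ψ, h1, -, h2⟩ := exists_clifford_correspondent θ.2
    (le_inertia (IsIrrCharacter_isClassFunction θ.2)) rfl hχ hθ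
  have h3 : inertia θ.1 = ⊤ := by
    by_contra h; exact hprim ⟨_, h, ψ, IsIrrCharacter_isCharacter h1, h2⟩
  exact ⟨θ, _, θ.2, hθ, congrFun (res_eq_smul_of_invariant hχ θ.2
    (fun g => mem_inertia.1 (h3 ▸ Subgroup.mem_top g)) hθ)⟩

theorem card_inf_mul_relIndex' (C K : Subgroup G) :
    Nat.card (C ⊓ K : Subgroup G) * C.relIndex K = Nat.card K := by
  rw [← Subgroup.inf_relIndex_right, ← Subgroup.relIndex_bot_left, ← Subgroup.relIndex_bot_left,
    Subgroup.relIndex_mul_relIndex _ _ _ bot_le inf_le_right]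

theorem relIndex_dvd_of_normal_right [Finite G] (C : Subgroup G) {K M : Subgroup G} [K.Normal]
    (h : K ≤ M) : C.relIndex K ∣ C.relIndex M := by
  have h1 := H2.card_sup_mul_card_inf (C ⊓ M) K (Subgroup.le_normalizer_of_normal)
  rw [inf_assoc, inf_eq_right.2 h, ← card_inf_mul_relIndex' C K, mul_left_comm, mul_comm] at h1
  have h2 := Nat.eq_of_mul_eq_mul_left Nat.card_pos h1
  have h3 : Nat.card (C ⊓ M ⊔ K : Subgroup G) ∣ Nat.card M :=
    Subgroup.card_dvd_of_le (sup_le inf_le_right h)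
  rw [h2, ← card_inf_mul_relIndex' C M] at h3
  exact Nat.dvd_of_mul_dvd_mul_left Nat.card_pos h3

theorem relIndex_centralizer_mul_dvd [Finite G] {Q : Type*} [Group Q] (π : G →* Q)
    {N : Subgroup G} (hN : π.ker ≤ N) (g : G) :
    (Subgroup.centralizer ({g} : Set G)).relIndex π.ker *
      (Subgroup.centralizer ({π g} : Set Q)).relIndex (N.map π) ∣
      (Subgroup.centralizer ({g} : Set G)).relIndex N := by
  set C := Subgroup.centralizer ({g} : Set G)
  set C' := Subgroup.centralizer ({π g} : Set Q)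
  have hC : C ≤ C'.comap π := fun x hx => by
    rw [Subgroup.mem_comap, Subgroup.mem_centralizer_singleton_iff, ← map_mul, ← map_mul,
      Subgroup.mem_centralizer_singleton_iff.1 hx]
  have hK : π.ker ≤ C'.comap π ⊓ N := le_inf (Subgroup.ker_le_comap π C') hN
  have h1 := Subgroup.relIndex_inf_mul_relIndex C (C'.comap π) N
  rw [inf_eq_left.2 hC] at h1
  rw [← Subgroup.relIndex_comap, ← h1]
  exact Nat.mul_dvd_mul_right (relIndex_dvd_of_normal_right C hK) _

/-- `k` centralises every `p`-chief factor of `G`. -/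
def CentPChief (p : ℕ) (k : G) : Prop :=
  ∀ (L : Subgroup G) [L.Normal] (W : Subgroup (G ⧸ L)), W.Normal → IsPGroup p W →
    (∀ M : Subgroup (G ⧸ L), M.Normal → M ≤ W → M = ⊥ ∨ M = W) → ∀ w ∈ W, (k : G ⧸ L) * w = w * k

theorem exists_weight [Fintype G] [Group.IsSolvable G] {p : ℕ} [hp : Fact p.Prime] {χ : G → ℂ}
    (hq : ∀ (N : Subgroup G) [N.Normal], ∃ (θ : N → ℂ) (a : ℂ), IsIrrCharacter N θ ∧ a ≠ 0 ∧
      ∀ n : N, χ n = a * θ n) (m : ℕ) : ∀ (N : Subgroup G) [N.Normal], Nat.card N = m →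
    ∀ (θ : N → ℂ) (a : ℂ), IsIrrCharacter N θ → a ≠ 0 → (∀ n : N, χ n = a * θ n) →
    ∃ c : G → ℕ, (∀ g, p ^ c g ∣ (Subgroup.centralizer ({g} : Set G)).relIndex N) ∧
      Nat.card G * (charDegree θ).factorization p ≤ ∑ g, c g ∧
      ∀ g k, CentPChief p k → c (g * k) = c g := by
  classical
  induction m using Nat.strong_induction_on with
  | _ m ih =>
  intro N hN hm θ a hθ ha hχ
  by_cases hN0 : N = ⊥
  · refine ⟨0, by simp, ?_, fun _ _ _ => rfl⟩
    have : charDegree θ = 1 := charDegree_eq (by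
      rw [IsIrrCharacter_apply_one_of_comm (fun a b => Subtype.ext ?_) hθ, Nat.cast_one]
      rw [Subgroup.mem_bot.1 (hN0.le (a * b).2), Subgroup.mem_bot.1 (hN0.le (b * a).2)])
    simp [this]
  obtain ⟨L, ⟨hL, hLN⟩, hmax⟩ := Set.Finite.exists_maximal
    (s := {L : Subgroup G | L.Normal ∧ L < N}) (Set.toFinite _)
    ⟨⊥, inferInstance, bot_lt_iff_ne_bot.2 hN0⟩
  obtain ⟨φ, b, hφ, hb, hχφ⟩ := hq L
  obtain ⟨c, hc1, hc2, hc3⟩ := ih _ (hm ▸ Set.Finite.card_lt_card (Set.toFinite (N : Set G)) hLN) L rfl φ b hφ hb hχφ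
  set π := QuotientGroup.mk' L
  have hker : π.ker = L := QuotientGroup.ker_mk' L
  set W := N.map π with hW
  have hWn : W.Normal := hN.map _ (QuotientGroup.mk'_surjective L)
  have hmin : ∀ M : Subgroup (G ⧸ L), M.Normal → M ≤ W → M = ⊥ ∨ M = W := fun M hM hMW => by
    have h1 : M.comap π ≤ N := by
      have := Subgroup.comap_mono (f := π) hMW
      rwa [hW, Subgroup.comap_map_eq, hker, sup_eq_left.2 hLN.le] at this
    have h2 : L ≤ M.comap π := hker.ge.trans (Subgroup.ker_le_comap π M)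
    rw [← Subgroup.map_comap_eq_self_of_surjective (QuotientGroup.mk'_surjective L) M]
    rcases h1.lt_or_eq with h | h
    · left
      rw [Subgroup.map_eq_bot_iff, hker]
      exact hmax ⟨hM.comap π, h⟩ h2
    · right; rw [h]
  have hW0 : W ≠ ⊥ := fun h => hLN.not_ge (by rwa [hW, Subgroup.map_eq_bot_iff, hker] at h)
  obtain ⟨hWc, r, hr, hWr⟩ := H2.minimal_normal_elementary_abelian W hW0 hmin
  have hWab : ∀ a ∈ W, ∀ b ∈ W, a * b = b * a := fun a ha b hb =>
    congrArg Subtype.val (hWc.is_comm.comm (⟨a, ha⟩ : W) ⟨b, hb⟩)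
  obtain ⟨e, he1, he2⟩ := sq_dvd_index_of_res_eq (L.subgroupOf N) (fun x y => by
      rw [Subgroup.mem_subgroupOf, ← hker, MonoidHom.mem_ker]
      simp only [Subgroup.coe_mul, Subgroup.coe_inv, map_mul, map_inv]
      rw [hWab _ ⟨x, x.2, rfl⟩ _ ⟨y, y.2, rfl⟩]; group) hθ
    (IsIrrCharacter_comp_mulEquiv (Subgroup.subgroupOfEquivOfLe hLN.le) hφ) (c := b / a)
    fun k => by
      have h1 := hχ k
      have h2 := hχφ (Subgroup.subgroupOfEquivOfLe hLN.le k)
      rw [div_mul_eq_mul_div, eq_div_iff ha, mul_comm, ← h1, ← h2]; rfl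
  have he3 : charDegree θ = e * charDegree φ := by
    rw [he1]; exact congrArg _ (charDegree_comp
      (Subgroup.subgroupOfEquivOfLe hLN.le).toMonoidHom φ)
  have he4 : e ^ 2 ∣ Nat.card W := by
    rwa [← Subgroup.relIndex_ker, hker]
  have he0 : e ≠ 0 := fun h => by
    rw [h] at he4; exact (Nat.card_pos (α := W)).ne' (by simpa using he4)
  have hfac : (charDegree θ).factorization p = e.factorization p + (charDegree φ).factorization p := by
    rw [he3, Nat.factorization_mul he0 (charDegree_pos hφ).ne']; rfl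
  have hdiv := relIndex_centralizer_mul_dvd π (hker ▸ hLN.le)
  rw [hker] at hdiv
  by_cases hpe : e.factorization p = 0
  · exact ⟨c, fun g => (hc1 g).trans ((Dvd.intro _ rfl).trans (hdiv g)),
      by rwa [hfac, hpe, zero_add], hc3⟩
  have hp2 : p ^ (2 * e.factorization p) ∣ Nat.card W := by
    rw [mul_comm, pow_mul]; exact (pow_dvd_pow_of_dvd (Nat.ordProj_dvd e p) 2).trans he4
  have hrp : p = r := by
    have := Fact.mk hr
    obtain ⟨k, hk⟩ := IsPGroup.exists_card_eq (p := r) (G := W)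
      fun g => ⟨1, Subtype.ext (by simpa using hWr g g.2)⟩
    exact (Nat.prime_dvd_prime_iff_eq hp.out hr).1 (hp.out.dvd_of_dvd_pow
      (hk ▸ (dvd_pow_self p (by omega)).trans hp2))
  subst hrp
  obtain ⟨V, _, _, ρ, ε, hε1, hε⟩ : ∃ (V : Type _) (_ : AddCommGroup V) (_ : Module (ZMod p) V)
      (ρ : Representation (ZMod p) G V) (ε : V ≃ W), (∀ a b, (ε (a + b) : G ⧸ L) = ε a * ε b) ∧
        ∀ (h : G) w, (ε (ρ h w) : G ⧸ L) = π h * ε w * (π h)⁻¹ := by
    obtain ⟨V, i1, i2, ρ, ε, h1, h2⟩ := exists_conjRep (p := p) ⊤ W hWab hWr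
      fun h _ u hu => hWn.conj_mem u hu h
    exact ⟨V, i1, i2, ρ.comp ((Subgroup.topEquiv.symm.toMonoidHom).comp π), ε, h1,
      fun h w => h2 _ w⟩
  have : Finite V := Finite.of_equiv _ ε.symm
  have hε0 : (ε 0 : G ⧸ L) = 1 := by
    have := hε1 0 0
    rw [add_zero] at this
    exact left_eq_mul.1 this
  have hsub : ∀ U : Submodule (ZMod p) V, (∀ g, ∀ u ∈ U, ρ g u ∈ U) → U = ⊥ ∨ U = ⊤ := by
    intro U hU
    let M : Subgroup (G ⧸ L) :=
      { carrier := {x | ∃ u ∈ U, (ε u : G ⧸ L) = x}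
        mul_mem' := by
          rintro _ _ ⟨u, hu, rfl⟩ ⟨v, hv, rfl⟩
          exact ⟨u + v, add_mem hu hv, hε1 u v⟩
        one_mem' := ⟨0, zero_mem _, hε0⟩
        inv_mem' := by
          rintro _ ⟨u, hu, rfl⟩
          exact ⟨-u, neg_mem hu, eq_inv_of_mul_eq_one_left (by rw [← hε1, neg_add_cancel, hε0])⟩ }
    rcases hmin M ⟨by
      rintro _ ⟨u, hu, rfl⟩ g
      obtain ⟨g, rfl⟩ := QuotientGroup.mk'_surjective L g
      exact ⟨ρ g u, hU g u hu, hε g u⟩⟩ (by rintro _ ⟨u, -, rfl⟩; exact (ε u).2) with h | h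
    · left
      refine eq_bot_iff.2 fun u hu => ε.injective (Subtype.ext ?_)
      rw [hε0]; exact Subgroup.mem_bot.1 (h ▸ ⟨u, hu, rfl⟩)
    · right
      refine eq_top_iff.2 fun v _ => ?_
      obtain ⟨u, hu, huv⟩ : (ε v : G ⧸ L) ∈ M := h.ge (ε v).2
      rwa [← ε.injective (Subtype.ext huv)]
  have hdim : 2 * e.factorization p ≤ finrank (ZMod p) V := by
    rwa [← Nat.card_congr ε, card_eq_pow_zmod p V, Nat.pow_dvd_pow_iff_le_right hp.out.one_lt] at hp2
  have hnt : ∃ g w, ρ g w ≠ w := by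
    by_contra h; push Not at h
    have : Nontrivial V := finrank_pos_iff.1 (show 0 < finrank (ZMod p) V by omega)
    obtain ⟨v, hv⟩ := exists_ne (0 : V)
    rcases hsub (Submodule.span (ZMod p) {v}) (fun g u hu => by rwa [h]) with h1 | h1
    · exact hv (Submodule.span_singleton_eq_bot.1 h1)
    · have := finrank_span_singleton (K := ZMod p) hv
      rw [h1, finrank_top] at this
      omega
  have hav := avg_fix ρ hsub hnt
  refine ⟨fun g => c g + (finrank (ZMod p) V - finrank (ZMod p) (fixSp ρ g)), fun g => ?_, ?_,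
    fun g k hk => ?_⟩
  · refine dvd_trans ?_ (hdiv g)
    rw [pow_add]
    refine Nat.mul_dvd_mul (hc1 g) (dvd_of_eq ?_)
    have h1 := card_inf_mul_relIndex' (Subgroup.centralizer ({π g} : Set (G ⧸ L))) W
    have h2 : Nat.card (Subgroup.centralizer ({π g} : Set (G ⧸ L)) ⊓ W : Subgroup _) =
        Nat.card (fixSp ρ g) := by
      have k1 : ∀ w : fixSp ρ g, (ε w.1 : G ⧸ L) ∈ Subgroup.centralizer ({π g} : Set (G ⧸ L)) :=
        fun w => by
          have := hε g w.1
          rw [mem_fixSp.1 w.2, eq_mul_inv_iff_mul_eq] at this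
          exact Subgroup.mem_centralizer_singleton_iff.2 this
      have k2 : ∀ u : (Subgroup.centralizer ({π g} : Set (G ⧸ L)) ⊓ W : Subgroup _),
          ε.symm ⟨u.1, u.2.2⟩ ∈ fixSp ρ g := fun u => mem_fixSp.2 (by
        apply ε.injective; ext
        have := Subgroup.mem_centralizer_singleton_iff.1 u.2.1
        rw [hε]; simp [← this])
      exact (Nat.card_congr
        { toFun := fun w => ⟨ε w.1, k1 w, (ε w.1).2⟩
          invFun := fun u => ⟨ε.symm ⟨u.1, u.2.2⟩, k2 u⟩
          left_inv := fun w => by simp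
          right_inv := fun u => by simp }).symm
    rw [h2, ← Nat.card_congr ε, card_eq_pow_zmod p V, card_eq_pow_zmod p (fixSp ρ g),
      ← Nat.add_sub_cancel' (Submodule.finrank_le (fixSp ρ g)), pow_add] at h1
    exact (Nat.eq_of_mul_eq_mul_left (pow_pos hp.out.pos _) h1).symm
  · have h1 : ∑ g, (finrank (ZMod p) V - finrank (ZMod p) (fixSp ρ g)) +
        ∑ g, finrank (ZMod p) (fixSp ρ g) = Nat.card G * finrank (ZMod p) V := by
      rw [← Finset.sum_add_distrib, Finset.sum_congr rfl fun g _ =>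
        Nat.sub_add_cancel (Submodule.finrank_le (fixSp ρ g))]
      simp
    have h2 := Nat.mul_le_mul_left (Nat.card G) hdim
    rw [Finset.sum_add_distrib, hfac, mul_add]
    nlinarith
  · have h1 : ρ (g * k) = ρ g := LinearMap.ext fun v => by
      rw [← rep_mul_app]
      congr 1
      apply ε.injective; ext
      rw [hε, show π k = (k : G ⧸ L) from rfl, hk L W hWn (fun g => ⟨1, Subtype.ext (by
        simpa using hWr g g.2)⟩) hmin _ (ε v).2, mul_inv_cancel_right]
    show c (g * k) + _ = c g + _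
    rw [hc3 g k hk, fixSp, h1]; rfl

theorem exists_class_of_primitive [Fintype G] [Group.IsSolvable G] (p : ℕ) [hp : Fact p.Prime]
    {χ : G → ℂ} (hχ : IsIrrCharacter G χ)
    (hprim : ¬ ∃ H : Subgroup G, H ≠ ⊤ ∧ ∃ θ : H → ℂ, IsCharacter H θ ∧ indFun H θ = χ) :
    ∃ g : G, ∀ k, CentPChief p k →
      p ^ (charDegree χ).factorization p ∣ (Subgroup.centralizer ({g * k} : Set G)).index := by
  obtain ⟨c, h1, h2, h3⟩ := exists_weight (p := p) (exists_res_eq_of_primitive hχ hprim) _ ⊤ rfl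
    (fun g => χ g) 1 (IsIrrCharacter_comp_mulEquiv Subgroup.topEquiv hχ) one_ne_zero
    fun n => (one_mul _).symm
  have h4 : charDegree (fun g : (⊤ : Subgroup G) => χ g) = charDegree χ :=
    charDegree_comp (Subgroup.subtype ⊤) χ
  obtain ⟨g, -, hg⟩ := Finset.exists_le_of_sum_le (s := Finset.univ) Finset.univ_nonempty
    (f := fun _ => (charDegree χ).factorization p) (g := c) (by simpa [h4] using h2)
  refine ⟨g, fun k hk => ?_⟩
  have := h1 (g * k)
  rw [Subgroup.relIndex_top_right, h3 g k hk] at this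
  exact (pow_dvd_pow _ hg).trans this

theorem centPChief_one (p : ℕ) : CentPChief p (1 : G) := fun L _ W _ _ _ w _ => by simp

theorem exists_class_of_primitive' [Fintype G] [Group.IsSolvable G] (p : ℕ) [hp : Fact p.Prime]
    {χ : G → ℂ} (hχ : IsIrrCharacter G χ)
    (hprim : ¬ ∃ H : Subgroup G, H ≠ ⊤ ∧ ∃ θ : H → ℂ, IsCharacter H θ ∧ indFun H θ = χ) :
    ∃ g : G, (charDegree χ).factorization p ≤
      ((Subgroup.centralizer ({g} : Set G)).index).factorization p := by
  obtain ⟨g, hg⟩ := exists_class_of_primitive p hχ hprim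
  have := hg 1 (centPChief_one p)
  rw [mul_one] at this
  exact ⟨g, (hp.out.pow_dvd_iff_le_factorization Subgroup.index_ne_zero_of_finite).1 this⟩

theorem CentPChief.mul {p : ℕ} {a b : G} (ha : CentPChief p a) (hb : CentPChief p b) :
    CentPChief p (a * b) := fun L _ W h1 h2 h3 w hw => by
  rw [QuotientGroup.mk_mul, mul_assoc, hb L W h1 h2 h3 w hw, ← mul_assoc, ha L W h1 h2 h3 w hw,
    mul_assoc]

/-- a normal subgroup `K` that is nilpotent, or more generally with fixed points, centralises a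
minimal normal subgroup -/
theorem le_centralizer_of_minimal {X : Type*} [Group X] {W K : Subgroup X} [W.Normal] [K.Normal]
    (hmin : ∀ M : Subgroup X, M.Normal → M ≤ W → M = ⊥ ∨ M = W)
    (h : W ⊓ Subgroup.centralizer (K : Set X) ≠ ⊥) : ∀ k ∈ K, ∀ w ∈ W, k * w = w * k :=
  fun k hk w hw => ((hmin _ inferInstance inf_le_left).resolve_left h).ge hw |>.2 k hk

theorem centPChief_of_metanilpotent [Finite G] [hF : (fittingSubgroup G).Normal]
    (hmeta : Group.IsNilpotent (G ⧸ fittingSubgroup G)) {p : ℕ} [hp : Fact p.Prime] (P : Sylow p G) :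
    ∀ k ∈ (P : Subgroup G) ⊔ fittingSubgroup G, CentPChief p k := by
  intro k hk L _ W hW hWp hmin
  by_cases hW0 : W = ⊥
  · intro w hw; simp [Subgroup.mem_bot.1 (hW0.le hw)]
  set F := fittingSubgroup G
  set π := QuotientGroup.mk' L
  have hsurj := QuotientGroup.mk'_surjective L
  have hFn : (F.map π).Normal := hF.map _ hsurj
  have hFc : ∀ f ∈ F.map π, ∀ w ∈ W, f * w = w * f :=
    le_centralizer_of_minimal hmin (H1.inf_centralizer_ne_bot_of_isNilpotent
      (H1.map_fittingSubgroup_le hsurj) (H1.le_fittingSubgroup hW hWp.isNilpotent)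
      Subgroup.le_normalizer_of_normal hW0)
  have hK : ((P : Subgroup G) ⊔ F).Normal := by
    have h1 := H1.sylow_normal_of_isNilpotent (P.mapSurjective (QuotientGroup.mk'_surjective F))
    have h2 := h1.comap (QuotientGroup.mk' F)
    rwa [Sylow.coe_mapSurjective, Subgroup.comap_map_eq, QuotientGroup.ker_mk'] at h2
  have hKn := hK.map _ hsurj
  refine le_centralizer_of_minimal (K := ((P : Subgroup G) ⊔ F).map π) hmin ?_ _ ⟨k, hk, rfl⟩
  refine fun h => H1.inf_centralizer_ne_bot_of_isPGroup hWp (P.isPGroup'.map π)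
    Subgroup.le_normalizer_of_normal hW0 (eq_bot_iff.2 fun w hw => h.le ⟨hw.1, ?_⟩)
  rw [Subgroup.map_sup]
  refine (Subgroup.le_centralizer_iff (H := P.1.map π ⊔ F.map π) (K := Subgroup.zpowers w)).1 ?_
    (Subgroup.mem_zpowers w)
  refine sup_le (Subgroup.le_centralizer_iff.1 (Subgroup.zpowers_le.2 hw.2))
    (Subgroup.le_centralizer_iff.1 (Subgroup.zpowers_le.2 fun f hf => hFc f hf w hw.1))

end Cfsg.Agent.Lead
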